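import Cfsg.Agent.H934.IdxPSU
import Cfsg.Agent.H216.StarDef
import Cfsg.Agent.H794.PsuNotAb
import Cfsg.Agent.H629.PIndex

/-!
# `PSU₃(q)`: a Sylow `p`-subgroup with a centre of index `p²` has order `p³` (helper629)
-/

set_option autoImplicit false

namespace Cfsg.Agent.H629.PsuIdx

open Cfsg Subgroup Cfsg.Agent.ClassicalGeometry.PSUAutBasic Cfsg.Agent.ClassicalGeometry.PSUAutSylow
  Cfsg.Agent.LieClassical.HermSiegel Cfsg.Agent.LieClassical.HermBasic Cfsg.Agent.LieClassical.HermGen
  Cfsg.Agent.ClassicalGeometry.PSUAutPhi Cfsg.Agent.ClassicalGeometry.PSUAutSemi Cfsg.Agent.H934.IdxPSU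
  Cfsg.Agent.H934

/-- central commutators of a `p`-subgroup and the commutator subgroup of a Sylow `p`-subgroup -/
theorem card_le_of_hom {G : Type*} [Group G] [Finite G] {p : ℕ} [Fact p.Prime] (P : Sylow p G) {H : Type*} [Group H]
    (hH : IsPGroup p H) {φ : H →* G} (hφ : Function.Injective φ) (Z : Subgroup H) (hZ : Z ≤ commutator H) :
    Nat.card Z ≤ Nat.card (commutator (P : Subgroup G)) := by
  have h1 : IsPGroup p φ.range := hH.of_surjective φ.rangeRestrict φ.rangeRestrict_surjective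
  obtain ⟨Q, hQ⟩ := h1.exists_le_sylow
  let ψ : H →* ↥(P : Subgroup G) :=
    ((Sylow.equiv Q P).toMonoidHom.comp (Subgroup.inclusion hQ)).comp φ.rangeRestrict
  have hψ : Function.Injective ψ := by
    refine (((Sylow.equiv Q P).injective).comp (Subgroup.inclusion_injective hQ)).comp ?_
    intro a b hab
    exact hφ (congrArg Subtype.val hab)
  have h2 : Z.map ψ ≤ commutator (P : Subgroup G) := by
    refine (Subgroup.map_mono hZ).trans ?_
    rw [commutator_def, commutator_def, Subgroup.map_commutator]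
    exact Subgroup.commutator_mono le_top le_top
  rw [Nat.card_congr (Z.equivMapOfInjective ψ hψ).toEquiv]
  exact Nat.card_le_card_of_injective _ (Subgroup.inclusion_injective h2)

theorem psu_index {G : Type*} [Group G] [Finite G] {F : Type} [Field F] [Fintype F] {p q : ℕ} [Fact p.Prime]
    [CharP F p] (hF : Fintype.card F = q ^ 2) (e : G ≃* PSU 3 F q) (P : Sylow p G)
    (hZ : (Subgroup.center (P : Subgroup G)).index = p ^ 2) (hna : ¬ IsMulCommutative (P : Subgroup G)) :
    Nat.card (P : Subgroup G) = p ^ 3 := by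
  have hpp : p.Prime := Fact.out
  obtain ⟨u, f, H⟩ := exists_frame (n := 3) hF (by omega)
  have hu0 : u ≠ 0 := by
    rintro rfl
    have := H.ef
    simp [hermForm] at this
  have hp := isPGroup_siegG hF p H.ee
  let φ : ↥(siegG hF u H.ee) →* G := (e.symm.toMonoidHom.comp (pr 3 F q)).comp (siegG hF u H.ee).subtype
  have hφ : Function.Injective φ := by
    intro a b hab
    have h1 : pr 3 F q a.1 = pr 3 F q b.1 := e.symm.injective hab
    obtain ⟨k, hk⟩ := hp a
    obtain ⟨l, hl⟩ := hp b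
    exact Subtype.ext (eq_of_pr_eq hF le_rfl (congrArg Subtype.val hk) (congrArg Subtype.val hl) h1)
  -- an element outside the transvection group
  obtain ⟨w, hw, hw0⟩ : ∃ w ∈ coordSub F 3 (3 - 2), w ≠ 0 := by
    refine ⟨bas F 3 ⟨0, by omega⟩, (bas F 3 ⟨0, by omega⟩).2, ?_⟩
    intro h0
    exact bas_ne_zero (F := F) (i := ⟨0, by omega⟩) (show (0 : ℕ) < 3 - 2 by omega) (Subtype.ext h0)
  obtain ⟨μ, h⟩ := exists_isSiegel hF H hw
  have hs : siegel hF u w μ h ∈ siegG hF u H.ee := ⟨w, μ, h, rfl⟩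
  have hs' : siegel hF u w μ h ∉ transvG hF u H.ee := by
    intro h1
    obtain ⟨ν, hν, h2⟩ := mem_transvG.1 h1
    exact hw0 (siegel_inj hF H hw (zero_mem _) h (isSiegel_zero H.ee hν) h2).1
  have hle : (transvG hF u H.ee).subgroupOf (siegG hF u H.ee) ≤ commutator ↥(siegG hF u H.ee) := by
    intro z hz
    obtain ⟨y, -, hy⟩ := (IdxPSU.hyp hF hu0 H.ee).special ⟨_, hs⟩ (Subgroup.mem_top _)
      (by rw [Subgroup.mem_subgroupOf]; exact hs') z hz
    rw [← hy, ← commutatorElement_def]
    exact Subgroup.commutator_mem_commutator (Subgroup.mem_top _) (Subgroup.mem_top _)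
  have h1 := card_le_of_hom P hp hφ _ hle
  rw [PIndex.card_commutator hna hZ] at h1
  have h2 : q ≤ Nat.card ↥((transvG hF u H.ee).subgroupOf (siegG hF u H.ee)) := by
    rw [Nat.card_congr (Subgroup.subgroupOfEquivOfLe (transvG_le_siegG hF H.ee)).toEquiv]
    exact card_transvG hF hu0 H.ee
  have hqp : q ≤ p := h2.trans h1
  have hq : q = p := by
    obtain ⟨m, -, hm⟩ := FiniteField.card F p
    have h3 : p ∣ q ^ 2 := by
      rw [← hF, hm]
      exact dvd_pow_self p m.ne_zero
    have h4 := Nat.le_of_dvd (Nat.pos_of_ne_zero ?_) (hpp.dvd_of_dvd_pow h3)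
    · omega
    · rintro rfl
      have := Fintype.card_pos (α := F)
      omega
  subst hq
  have : Finite (PSU 3 F q) := Quotient.finite _
  obtain ⟨T⟩ : Nonempty (Sylow q (PSU 3 F q)) := inferInstance
  rw [← H216.StarDef.card_sylow_psu hF T, P.card_eq_multiplicity, T.card_eq_multiplicity, Nat.card_congr e.toEquiv]

end Cfsg.Agent.H629.PsuIdx
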